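import Cfsg.Agent.H106.RC.Cover

/-!
# The automorphism of `S ≃* N` induced by `x : G`
-/

set_option autoImplicit false
open Cfsg

namespace Cfsg.Agent.H202.RC

open MulAction Cfsg.Agent.H106.RC

variable {G S : Type*} [Group G] [Group S] {N : Subgroup G}

/-- action of `G` on `S` by conjugation on the normal subgroup `N`, transported by `e : N ≃* S` -/
noncomputable def autE (hN : N.Normal) (e : N ≃* S) : G →* MulAut S :=
  (MulAut.congr e).toMonoidHom.comp MulAut.conjNormal

theorem autE_apply (hN : N.Normal) (e : N ≃* S) (x : G) (s : N) :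
    autE hN e x (e s) = e ⟨x * s * x⁻¹, hN.conj_mem _ s.2 x⟩ := by
  change e (MulAut.conjNormal x (e.symm (e s))) = _
  rw [e.symm_apply_apply]
  congr 1

/-- conjugation formula in `G` -/
theorem autE_symm (hN : N.Normal) (e : N ≃* S) (x : G) (s : S) :
    x * (e.symm s : G) * x⁻¹ = e.symm (autE hN e x s) := by
  obtain ⟨t, rfl⟩ := e.surjective s
  rw [autE_apply, e.symm_apply_apply, e.symm_apply_apply]

/-- elements of `N` induce inner automorphisms -/
theorem autE_coe (hN : N.Normal) (e : N ≃* S) (t : N) : autE hN e (t : G) = MulAut.conj (e t) := by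
  apply MulEquiv.ext
  intro s
  obtain ⟨u, rfl⟩ := e.surjective s
  rw [autE_apply, MulAut.conj_apply, ← map_mul, ← map_inv, ← map_mul]
  rfl

theorem autE_injective {Ω : Type*} [MulAction G Ω] (hE : Env G Ω N) (e : N ≃* S) :
    Function.Injective (autE hE.norm e) := by
  rw [injective_iff_map_eq_one]
  intro x hx
  have h1 : x ∈ Subgroup.centralizer (N : Set G) := by
    rw [Subgroup.mem_centralizer_iff]
    intro s hs
    have h2 := autE_apply hE.norm e x ⟨s, hs⟩
    rw [hx, MulAut.one_apply] at h2
    have h3 := congrArg Subtype.val (e.injective h2)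
    change s = x * s * x⁻¹ at h3
    calc s * x = (x * s * x⁻¹) * x := by rw [← h3]
      _ = x * s := by group
  rw [hE.cent] at h1
  exact Subgroup.mem_bot.1 h1

end Cfsg.Agent.H202.RC
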