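import Cfsg.Agent.H202.RC.TRules
import Cfsg.Agent.H202.RC.Duality

/-!
# No cover has a common invariant point or hyperplane
-/

set_option autoImplicit false
open Cfsg

namespace Cfsg.Agent.H202.RC

open MulAction Cfsg.Agent.H106.RC Module Cfsg.Agent.H359.RC

section frame

variable {F V G Ω : Type} [Field F] [AddCommGroup V] [Module F V] [Group G] [MulAction G Ω] {N : Subgroup G}
  {κ : SLV F V →* G}

/-- `κ` is injective on `Hom(V/W, W)` -/
theorem Frame.inj_QW (h : Frame Ω N κ) {W : Submodule F V} (hW : W ≠ ⊥) {s t : SLV F V} (hs : s ∈ QW W)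
    (ht : t ∈ QW W) (e : κ s = κ t) : s = t := by
  have h1 : κ (s * t⁻¹) = 1 := by rw [map_mul, map_inv, e, mul_inv_cancel]
  obtain ⟨c, hc⟩ := (h.ker _).1 h1
  obtain ⟨w, hw, hw0⟩ := Submodule.exists_mem_ne_zero_of_ne_bot hW
  have h2 := ((QW W).mul_mem hs ((QW W).inv_mem ht)).2 w hw
  rw [hc w] at h2
  have hc1 : c = 1 := by
    have h3 : (c - 1) • w = 0 := by rw [sub_smul, one_smul, h2, sub_self]
    rcases smul_eq_zero.1 h3 with h | h
    · exact sub_eq_zero.1 h
    · exact absurd h hw0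
  have h3 : s * t⁻¹ = 1 := by
    apply SLV.ext
    intro v
    rw [hc v, hc1, one_smul, coe_one_apply]
  exact mul_inv_eq_one.1 h3

/-- an element acting on `N` like `κ b` is `κ b` -/
theorem Frame.eq_of_act (h : Frame Ω N κ) {x : G} {b : SLV F V}
    (hx : ∀ s, x * κ s * x⁻¹ = κ (cj (b : V ≃ₗ[F] V) s)) : x = κ b := by
  have h1 : (κ b)⁻¹ * x ∈ Subgroup.centralizer (N : Set G) := by
    rw [Subgroup.mem_centralizer_iff]
    intro n hn
    rw [← h.range] at hn
    obtain ⟨s, rfl⟩ := hn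
    have h2 := hx s
    rw [cj_sl, map_mul, map_mul, map_inv] at h2
    have h3 : x * κ s = κ b * κ s * (κ b)⁻¹ * x := by rw [← h2]; group
    calc κ s * ((κ b)⁻¹ * x) = (κ b)⁻¹ * (κ b * κ s * (κ b)⁻¹ * x) := by group
      _ = (κ b)⁻¹ * (x * κ s) := by rw [h3]
      _ = (κ b)⁻¹ * x * κ s := by group
  rw [h.env.cent, Subgroup.mem_bot] at h1
  exact (inv_mul_eq_one.1 h1).symm

end frame

/-- elements of `QW ⟨v⟩` are transvections -/
theorem exists_tv {F V : Type*} [Field F] [AddCommGroup V] [Module F V] {v : V} (hv : v ≠ 0) {s : SLV F V}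
    (hs : s ∈ QW (Submodule.span F {v})) : ∃ (φ : Dual F V) (h : φ v = 0), s = tv φ v h := by
  obtain ⟨k, -, k1, k2, rfl⟩ := exists_uh hs
  let φ : Dual F V := (LinearEquiv.toSpanNonzeroSingleton F V v hv).symm.toLinearMap ∘ₗ
    (k.codRestrict (Submodule.span F {v}) k1)
  have hφ : ∀ x, φ x • v = k x := by
    intro x
    have h1 := (LinearEquiv.toSpanNonzeroSingleton F V v hv).apply_symm_apply ⟨k x, k1 x⟩
    have h2 := congrArg Subtype.val h1
    rw [LinearEquiv.toSpanNonzeroSingleton_apply] at h2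
    exact h2
  have h0 : φ v = 0 := by
    have h1 := hφ v
    rw [k2 v (Submodule.mem_span_singleton_self v)] at h1
    exact (smul_eq_zero.1 h1).resolve_right hv
  refine ⟨φ, h0, ?_⟩
  apply SLV.ext
  intro x
  rw [uh_apply, tv_apply, hφ]

theorem tv_mem_QW {F V : Type*} [Field F] [AddCommGroup V] [Module F V] {v : V} {φ : Dual F V} (h : φ v = 0) :
    tv φ v h ∈ QW (Submodule.span F {v}) := by
  refine ⟨fun x => ?_, fun w hw => ?_⟩
  · rw [tv_apply, add_sub_cancel_left]
    exact Submodule.smul_mem _ _ (Submodule.mem_span_singleton_self v)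
  · obtain ⟨c, rfl⟩ := Submodule.mem_span_singleton.1 hw
    rw [tv_apply, map_smul, h, smul_zero, zero_smul, add_zero]

section main

variable {F V G Ω ι : Type} [Field F] [Finite F] [AddCommGroup V] [Module F V] [Module.Finite F V] [Group G] [Finite G]
  [Nonempty Ω] [MulAction G Ω] [Finite ι] {N : Subgroup G} {κ : SLV F V →* G} {x : ι → G} {r : ι → ℕ}
  {a : ι → V ≃ₗ[F] V}

/-- **No common invariant point.** -/
theorem no_point (h : LinCov Ω N κ x r a) (hn : 3 ≤ finrank F V) (v : V) (hv : v ≠ 0)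
    (hinv : ∀ i, ∃ c : F, a i v = c • v) : False := by
  classical
  obtain ⟨p, hp, hF⟩ : ∃ p : ℕ, p.Prime ∧ CharP F p :=
    ⟨ringChar F, CharP.char_is_prime F _, inferInstance⟩
  set P := Submodule.span F {v} with hP
  have hPne : P ≠ ⊥ := by
    rw [hP, Ne, Submodule.span_singleton_eq_bot]; exact hv
  have hvP : v ∈ P := Submodule.mem_span_singleton_self v
  have hai : ∀ i, ∀ w ∈ P, a i w ∈ P := by
    intro i w hw
    obtain ⟨c, rfl⟩ := Submodule.mem_span_singleton.1 hw
    obtain ⟨d, hd⟩ := hinv i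
    rw [map_smul, hd]
    exact Submodule.smul_mem _ _ (Submodule.smul_mem _ _ hvP)
  have hne0 : ∀ i (c : F), a i v = c • v → c ≠ 0 := by
    rintro i c hc rfl
    rw [zero_smul] at hc
    exact hv ((a i).map_eq_zero_iff.1 hc)
  have hai' : ∀ i, ∀ w ∈ P, (a i).symm w ∈ P := by
    intro i w hw
    obtain ⟨c, rfl⟩ := Submodule.mem_span_singleton.1 hw
    obtain ⟨d, hd⟩ := hinv i
    have hd0 := hne0 i d hd
    have : (a i).symm v = d⁻¹ • v := by
      rw [LinearEquiv.symm_apply_eq, map_smul, hd, smul_smul, inv_mul_cancel₀ hd0, one_smul]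
    rw [map_smul, this]
    exact Submodule.smul_mem _ _ (Submodule.smul_mem _ _ hvP)
  have hcjQ : ∀ i, ∀ s ∈ QW P, cj (a i) s ∈ QW P := by
    intro i s hs
    refine ⟨fun y => ?_, fun w hw => ?_⟩
    · obtain ⟨y, rfl⟩ := (a i).surjective y
      rw [cj_apply, ← map_sub]
      exact hai i _ (hs.1 y)
    · obtain ⟨w, rfl⟩ := (a i).surjective w
      have h1 := hai' i _ hw
      rw [LinearEquiv.symm_apply_apply] at h1
      rw [cj_apply, hs.2 w h1]
  refine no_radical h.fr.env h.pf h.cov hp (Q := (QW P).map κ) ?_ ?_ ?_ ?_ ?_ ?_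
  · rintro _ ⟨s, hs, rfl⟩ _ ⟨t, ht, rfl⟩
    rw [← map_mul, QW_comm hs ht, map_mul]
  · rintro _ ⟨s, hs, rfl⟩
    rw [← map_pow, QW_pow hs, map_one]
  · -- nontrivial
    intro hbot
    obtain ⟨w, hw⟩ := exists_notMem_pair hn v v
    have hw' : w ∉ P := by
      intro hwP; apply hw
      rw [Set.pair_eq_singleton]; exact hwP
    obtain ⟨f, hf1, hf2⟩ := Submodule.exists_le_ker_of_notMem hw'
    have hfv : f v = 0 := hf2 hvP
    have h1 : κ (tv f v hfv) ∈ (QW P).map κ := ⟨_, tv_mem_QW hfv, rfl⟩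
    rw [hbot, Subgroup.mem_bot] at h1
    have h2 := h.fr.inj_QW hPne (tv_mem_QW hfv) (QW P).one_mem (by rw [h1, map_one])
    have h3 := congrArg (fun s : SLV F V => (s : V ≃ₗ[F] V) w) h2
    simp only [tv_apply, coe_one_apply] at h3
    have h4 : f w • v = 0 := by rwa [add_eq_left] at h3
    rcases smul_eq_zero.1 h4 with h | h
    · exact hf1 h
    · exact hv h
  · rintro i _ ⟨s, hs, rfl⟩
    rw [h.lift]
    exact ⟨_, hcjQ i s hs, rfl⟩
  · -- centralizer
    intro i hi
    have hfix : ∀ s ∈ QW P, cj (a i) s = s := by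
      intro s hs
      apply h.fr.inj_QW hPne (hcjQ i s hs) hs
      rw [← h.lift]
      have h1 := hi (κ s) ⟨s, hs, rfl⟩
      rw [h1, mul_inv_cancel_right]
    obtain ⟨c, hc⟩ := hinv i
    have hc0 := hne0 i c hc
    -- `φ ∘ a i = c φ` for `φ v = 0`
    have h1 : ∀ (φ : Dual F V), φ v = 0 → ∀ y, φ (a i y) = c * φ y := by
      intro φ hφ y
      have h2 := hfix _ (tv_mem_QW hφ)
      have h3 := congrArg (fun s : SLV F V => (s : V ≃ₗ[F] V) (a i y)) h2
      simp only [cj_apply, tv_apply] at h3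
      rw [map_add, map_smul, hc, add_right_inj, smul_smul] at h3
      have h4 : (φ (a i y) - φ y * c) • v = 0 := by rw [sub_smul, h3, sub_self]
      rcases smul_eq_zero.1 h4 with h | h
      · rw [sub_eq_zero.1 h, mul_comm]
      · exact absurd h hv
    let b0 : V ≃ₗ[F] V := (LinearEquiv.smulOfNeZero F V c⁻¹ (inv_ne_zero hc0)) * a i
    have hb0 : ∀ y, b0 y = c⁻¹ • a i y := fun y => rfl
    have hb1 : ∀ y, b0 y - y ∈ P := by
      intro y
      by_contra hno
      obtain ⟨f, hf1, hf2⟩ := Submodule.exists_le_ker_of_notMem hno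
      have hfv : f v = 0 := hf2 hvP
      apply hf1
      rw [map_sub, hb0, map_smul, h1 f hfv, smul_eq_mul, inv_mul_cancel_left₀ hc0, sub_self]
    have hb2 : ∀ w ∈ P, b0 w = w := by
      intro w hw
      obtain ⟨d, rfl⟩ := Submodule.mem_span_singleton.1 hw
      rw [hb0, map_smul, hc, smul_smul, smul_smul]
      congr 1
      field_simp
    -- `b0` as an element of `SL(V)`
    let k : V →ₗ[F] V := (b0 : V →ₗ[F] V) - LinearMap.id
    have hk : ∀ y, k y = b0 y - y := fun _ => rfl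
    have hkk : ∀ y, k (k y) = 0 := fun y => by rw [hk (k y), hk y, hb2 _ (hb1 y), sub_self]
    have hb3 : ∀ y, (uh k hkk : V ≃ₗ[F] V) y = b0 y := fun y => by rw [uh_apply, hk, add_sub_cancel]
    have hbQ : uh k hkk ∈ QW P := by
      refine ⟨fun y => ?_, fun w hw => ?_⟩
      · rw [hb3]; exact hb1 y
      · rw [hb3]; exact hb2 w hw
    have hx : x i = κ (uh k hkk) := by
      apply h.fr.eq_of_act
      intro s
      rw [h.lift]
      congr 1
      apply cj_eq
      intro y
      have h5 : a i y = c • (uh k hkk : V ≃ₗ[F] V) y := by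
        rw [hb3, hb0, smul_smul, mul_inv_cancel₀ hc0, one_smul]
      have h6 : a i ((s : V ≃ₗ[F] V) y) = c • (uh k hkk : V ≃ₗ[F] V) ((s : V ≃ₗ[F] V) y) := by
        rw [hb3, hb0, smul_smul, mul_inv_cancel₀ hc0, one_smul]
      rw [h5, h6, map_smul, cj_apply]
    rw [hx]
    exact ⟨_, hbQ, rfl⟩
  · -- transitivity on characters
    obtain ⟨ψ, hψ⟩ := exists_psi F
    have key : ∀ μ : (QW P).map κ →* ℂˣ, μ ≠ 1 → ∃ u : V, u ∉ P ∧ ∀ (φ : Dual F V) (hφ : φ v = 0),
        ((μ ⟨κ (tv φ v hφ), _, tv_mem_QW hφ, rfl⟩ : ℂˣ) : ℂ) = ψ (φ u) := by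
      intro μ hμ
      -- a functional with value one at `v`
      obtain ⟨f0, hf0⟩ : ∃ f0 : Dual F V, f0 v = 1 := by
        obtain ⟨f, hf1, -⟩ := Submodule.exists_le_ker_of_notMem (p := (⊥ : Submodule F V)) (v := v)
          (by rw [Submodule.mem_bot]; exact hv)
        exact ⟨(f v)⁻¹ • f, by rw [LinearMap.smul_apply, smul_eq_mul, inv_mul_cancel₀ hf1]⟩
      let pr : Dual F V → Dual F V := fun φ => φ - φ v • f0
      have hpr : ∀ φ, pr φ v = 0 := fun φ => by
        change φ v - φ v • f0 v = 0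
        rw [hf0, smul_eq_mul, mul_one, sub_self]
      have hpradd : ∀ φ φ', pr (φ + φ') = pr φ + pr φ' := fun φ φ' => by
        change (φ + φ') - (φ + φ') v • f0 = _
        rw [LinearMap.add_apply]
        change _ = (φ - φ v • f0) + (φ' - φ' v • f0)
        module
      let χ : AddChar (Dual F V) ℂ :=
        { toFun := fun φ => ((μ ⟨κ (tv (pr φ) v (hpr φ)), _, tv_mem_QW (hpr φ), rfl⟩ : ℂˣ) : ℂ)
          map_zero_eq_one' := by
            have h0 : (⟨κ (tv (pr 0) v (hpr 0)), _, tv_mem_QW (hpr 0), rfl⟩ : (QW P).map κ) = 1 := by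
              apply Subtype.ext
              change κ _ = 1
              rw [← map_one κ]
              congr 1
              apply SLV.ext
              intro y
              have : pr 0 = 0 := by change (0 : Dual F V) - (0 : Dual F V) v • f0 = 0; simp
              rw [tv_apply, this, coe_one_apply]
              simp
            rw [h0, map_one]; rfl
          map_add_eq_mul' := fun φ φ' => by
            rw [← Units.val_mul, ← map_mul]
            congr 2
            apply Subtype.ext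
            change κ _ = κ _ * κ _
            rw [← map_mul]
            congr 1
            rw [tv_mul_left]
            apply SLV.ext
            intro y
            rw [tv_apply, tv_apply, hpradd] }
      obtain ⟨ℓ, hℓ⟩ := exists_dual hψ χ
      let u : V := (Module.evalEquiv F V).symm ℓ
      have hu : ∀ φ : Dual F V, ℓ φ = φ u := by
        intro φ
        have h1 : ℓ = Module.evalEquiv F V u := ((Module.evalEquiv F V).apply_symm_apply ℓ).symm
        rw [h1]; rfl
      have hval : ∀ (φ : Dual F V) (hφ : φ v = 0),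
          ((μ ⟨κ (tv φ v hφ), _, tv_mem_QW hφ, rfl⟩ : ℂˣ) : ℂ) = ψ (φ u) := by
        intro φ hφ
        rw [← hu, ← hℓ]
        change _ = ((μ ⟨κ (tv (pr φ) v (hpr φ)), _, tv_mem_QW (hpr φ), rfl⟩ : ℂˣ) : ℂ)
        congr 2
        apply Subtype.ext
        change κ _ = κ _
        congr 1
        apply SLV.ext
        intro y
        have : pr φ = φ := by change φ - φ v • f0 = φ; rw [hφ, zero_smul, sub_zero]
        rw [tv_apply, tv_apply, this]
      refine ⟨u, ?_, hval⟩
      intro huP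
      apply hμ
      obtain ⟨d, hd⟩ := Submodule.mem_span_singleton.1 huP
      ext ⟨q, s, hs, rfl⟩
      obtain ⟨φ, hφ, rfl⟩ := exists_tv hv hs
      change ((μ ⟨κ (tv φ v hφ), _⟩ : ℂˣ) : ℂ) = 1
      rw [hval φ hφ, ← hd, map_smul, hφ, smul_zero, AddChar.map_zero_eq_one]
    intro μ ν hμ hν
    obtain ⟨u, hu, hμu⟩ := key μ hμ
    obtain ⟨u', hu', hνu⟩ := key ν hν
    obtain ⟨s, hs1, hs2⟩ := exists_sl hn (v := v) (u := u) (u' := u') hu hu'
    have hs1' : ((s⁻¹ : SLV F V) : V ≃ₗ[F] V) v = v := by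
      conv_lhs => rw [← hs1]
      rw [coe_inv_apply]
    have hsQ : ∀ t ∈ QW P, s⁻¹ * t * s ∈ QW P := by
      intro t ht
      obtain ⟨φ, hφ, rfl⟩ := exists_tv hv ht
      have e1 : s⁻¹ * tv φ v hφ * s = tv (φ ∘ₗ ((s : V ≃ₗ[F] V) : V →ₗ[F] V)) v (by
          rw [LinearMap.comp_apply, LinearEquiv.coe_coe, hs1, hφ]) := by
        apply SLV.ext
        intro y
        rw [coe_mul_apply, coe_mul_apply, tv_apply, map_add, map_smul, hs1', coe_inv_apply, tv_apply]
        rfl
      rw [e1]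
      exact tv_mem_QW _
    refine ⟨κ s, ?_, ?_⟩
    · rintro _ ⟨t, ht, rfl⟩
      rw [← map_inv, ← map_mul, ← map_mul]
      exact ⟨_, hsQ t ht, rfl⟩
    · ext ⟨q, t, ht, rfl⟩
      obtain ⟨φ, hφ, rfl⟩ := exists_tv hv ht
      have hφs : (φ ∘ₗ ((s : V ≃ₗ[F] V) : V →ₗ[F] V)) v = 0 := by
        rw [LinearMap.comp_apply, LinearEquiv.coe_coe, hs1, hφ]
      change ((μ ⟨(κ s)⁻¹ * κ (tv φ v hφ) * κ s, _⟩ : ℂˣ) : ℂ) = ((ν ⟨κ (tv φ v hφ), _⟩ : ℂˣ) : ℂ)
      have e2 : (⟨(κ s)⁻¹ * κ (tv φ v hφ) * κ s, by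
          rw [← map_inv, ← map_mul, ← map_mul]; exact ⟨_, hsQ _ (tv_mem_QW hφ), rfl⟩⟩ : (QW P).map κ) =
          ⟨κ (tv (φ ∘ₗ ((s : V ≃ₗ[F] V) : V →ₗ[F] V)) v hφs), _, tv_mem_QW hφs, rfl⟩ := by
        apply Subtype.ext
        change (κ s)⁻¹ * κ (tv φ v hφ) * κ s = κ _
        rw [← map_inv, ← map_mul, ← map_mul]
        congr 1
        apply SLV.ext
        intro y
        rw [coe_mul_apply, coe_mul_apply, tv_apply, map_add, map_smul, hs1', coe_inv_apply, tv_apply]
        rfl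
      rw [e2, hμu _ hφs, hνu φ hφ, LinearMap.comp_apply, LinearEquiv.coe_coe, hs2]

end main

/-! ### duality -/

section dual

variable {F V : Type} [Field F] [AddCommGroup V] [Module F V] [Module.Finite F V]

/-- contragredient -/
noncomputable def ctr (t : Dual F V ≃ₗ[F] Dual F V) : V ≃ₗ[F] V :=
  (Module.evalEquiv F V).trans (t.symm.dualMap.trans (Module.evalEquiv F V).symm)

theorem ctr_spec (t : Dual F V ≃ₗ[F] Dual F V) (φ : Dual F V) (v : V) : φ (ctr t v) = t.symm φ v := by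
  have h1 : Module.evalEquiv F V (ctr t v) = t.symm.dualMap (Module.evalEquiv F V v) :=
    (Module.evalEquiv F V).apply_symm_apply _
  exact DFunLike.congr_fun h1 φ

theorem ctr_apply (t : Dual F V ≃ₗ[F] Dual F V) (φ : Dual F V) (v : V) : t φ (ctr t v) = φ v := by
  rw [ctr_spec, LinearEquiv.symm_apply_apply]

theorem dual_ext (F : Type) {V : Type} [Field F] [AddCommGroup V] [Module F V] [Module.Finite F V] {v w : V} (h : ∀ φ : Dual F V, φ v = φ w) : v = w :=
  (Module.evalEquiv F V).injective (LinearMap.ext h)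

theorem det_ctr (t : Dual F V ≃ₗ[F] Dual F V) : LinearMap.det (ctr t : V →ₗ[F] V) =
    LinearMap.det (t.symm : Dual F V →ₗ[F] Dual F V) := by
  have h1 : (ctr t : V →ₗ[F] V) = ((Module.evalEquiv F V).symm : Dual F (Dual F V) →ₗ[F] V) ∘ₗ
      (t.symm : Dual F V →ₗ[F] Dual F V).dualMap ∘ₗ ((Module.evalEquiv F V).symm.symm : V →ₗ[F] Dual F (Dual F V)) := rfl
  rw [h1, LinearMap.det_conj, LinearMap.det_dualMap]

theorem ctr_mul (t u : Dual F V ≃ₗ[F] Dual F V) : ctr (t * u) = ctr t * ctr u := by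
  apply LinearEquiv.ext
  intro v
  apply dual_ext F
  intro φ
  obtain ⟨φ, rfl⟩ := (t * u).surjective φ
  rw [ctr_apply]
  change φ v = t (u φ) (ctr t (ctr u v))
  rw [ctr_apply, ctr_apply]

/-- contragredient on `SL` -/
noncomputable def ctrS : SLV F (Dual F V) →* SLV F V where
  toFun t := ⟨ctr t.1, by
    rw [mem_SLV, det_ctr, ← mem_SLV]
    exact (SLV F (Dual F V)).inv_mem t.2⟩
  map_one' := by
    apply SLV.ext
    intro v
    apply dual_ext F
    intro φ
    exact ctr_apply 1 φ v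
  map_mul' t u := Subtype.ext (ctr_mul _ _)

theorem ctrS_apply (t : SLV F (Dual F V)) (φ : Dual F V) (v : V) :
    (t : Dual F V ≃ₗ[F] Dual F V) φ ((ctrS t : V ≃ₗ[F] V) v) = φ v := ctr_apply _ _ _

theorem ctrS_surj : Function.Surjective (ctrS : SLV F (Dual F V) →* SLV F V) := by
  intro s
  have ht : (s : V ≃ₗ[F] V).symm.dualMap ∈ SLV F (Dual F V) := by
    rw [mem_SLV]
    have h1 := LinearMap.det_dualMap ((s : V ≃ₗ[F] V).symm : V →ₗ[F] V)
    have h2 := mem_SLV.1 ((SLV F V).inv_mem s.2)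
    exact h1.trans h2
  refine ⟨⟨_, ht⟩, ?_⟩
  apply SLV.ext
  intro v
  apply dual_ext F
  intro φ
  obtain ⟨φ, rfl⟩ := ((s : V ≃ₗ[F] V).symm.dualMap).surjective φ
  refine (ctrS_apply ⟨_, ht⟩ φ v).trans ?_
  change φ v = φ ((s : V ≃ₗ[F] V).symm ((s : V ≃ₗ[F] V) v))
  rw [LinearEquiv.symm_apply_apply]

variable {G Ω ι : Type} [Group G] [MulAction G Ω] {N : Subgroup G} {κ : SLV F V →* G} {x : ι → G} {r : ι → ℕ}
  {a : ι → V ≃ₗ[F] V}

theorem Frame.dual (h : Frame Ω N κ) : Frame Ω N (κ.comp (ctrS : SLV F (Dual F V) →* SLV F V)) := by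
  refine ⟨h.env, ?_, ?_⟩
  · rw [MonoidHom.range_comp, MonoidHom.range_eq_top.2 ctrS_surj, ← MonoidHom.range_eq_map, h.range]
  · intro t
    rw [MonoidHom.comp_apply, h.ker]
    constructor
    · rintro ⟨c, hc⟩
      by_cases hc0 : c = 0
      · refine ⟨0, fun φ => ?_⟩
        have hV : ∀ v : V, v = 0 := fun v => by
          have h1 := hc v
          rw [hc0, zero_smul] at h1
          exact ((ctrS t : V ≃ₗ[F] V).map_eq_zero_iff).1 h1
        apply LinearMap.ext
        intro v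
        rw [hV v, map_zero, map_zero]
      · refine ⟨c⁻¹, fun φ => ?_⟩
        apply LinearMap.ext
        intro v
        have h1 := ctrS_apply t φ v
        rw [hc v, map_smul] at h1
        rw [LinearMap.smul_apply, ← h1, smul_eq_mul, smul_eq_mul, inv_mul_cancel_left₀ hc0]
    · rintro ⟨c, hc⟩
      by_cases hc0 : c = 0
      · refine ⟨0, fun v => ?_⟩
        have hV : ∀ φ : Dual F V, φ = 0 := fun φ => by
          have h1 := hc φ
          rw [hc0, zero_smul] at h1
          exact ((t : Dual F V ≃ₗ[F] Dual F V).map_eq_zero_iff).1 h1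
        apply dual_ext F
        intro φ
        rw [hV φ, LinearMap.zero_apply, LinearMap.zero_apply]
      · refine ⟨c⁻¹, fun v => ?_⟩
        apply dual_ext F
        intro φ
        have h1 := ctrS_apply t φ v
        rw [hc φ, LinearMap.smul_apply] at h1
        rw [map_smul, ← h1, smul_eq_mul, smul_eq_mul, inv_mul_cancel_left₀ hc0]

theorem ctrS_cj (b : V ≃ₗ[F] V) (t : SLV F (Dual F V)) : ctrS (cj b.symm.dualMap t) = cj b (ctrS t) := by
  symm
  apply cj_eq
  intro v
  apply dual_ext F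
  intro φ
  obtain ⟨φ, rfl⟩ := ((cj b.symm.dualMap t : SLV F (Dual F V)) : Dual F V ≃ₗ[F] Dual F V).surjective φ
  rw [ctrS_apply]
  obtain ⟨φ, rfl⟩ := (b.symm.dualMap).surjective φ
  rw [cj_apply]
  change φ (b.symm (b v)) = (t : Dual F V ≃ₗ[F] Dual F V) φ (b.symm (b ((ctrS t : V ≃ₗ[F] V) v)))
  rw [LinearEquiv.symm_apply_apply, LinearEquiv.symm_apply_apply, ctrS_apply]

theorem LinCov.dual (h : LinCov Ω N κ x r a) : LinCov Ω N (κ.comp (ctrS : SLV F (Dual F V) →* SLV F V)) x r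
    (fun i => (a i).symm.dualMap) := by
  refine ⟨h.fr.dual, h.pf, h.cov, h.min, ?_, ?_⟩
  · intro i s
    rw [MonoidHom.comp_apply, MonoidHom.comp_apply, ctrS_cj, h.lift]
  · intro i j
    apply LinearEquiv.ext
    intro φ
    apply LinearMap.ext
    intro v
    change φ ((a j).symm ((a i).symm v)) = φ ((a i).symm ((a j).symm v))
    have h1 := h.comm i j
    congr 1
    rw [LinearEquiv.symm_apply_eq, LinearEquiv.symm_apply_eq]
    have h2 : ∀ w, a i (a j w) = a j (a i w) := fun w => congrArg (fun f : V ≃ₗ[F] V => f w) h1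
    rw [h2, LinearEquiv.apply_symm_apply, LinearEquiv.apply_symm_apply]

/-- **No common invariant hyperplane.** -/
theorem no_hyper [Finite F] [Finite G] [Nonempty Ω] [Finite ι] (h : LinCov Ω N κ x r a)
    (hn : 3 ≤ finrank F V) (φ : Dual F V) (hφ : φ ≠ 0)
    (hinv : ∀ i, ∃ c : F, ∀ v, φ (a i v) = c * φ v) : False := by
  refine no_point h.dual (by rwa [Subspace.dual_finrank_eq]) φ hφ fun i => ?_
  obtain ⟨c, hc⟩ := hinv i
  have hc0 : c ≠ 0 := by
    rintro rfl
    apply hφ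
    apply LinearMap.ext
    intro v
    obtain ⟨v, rfl⟩ := (a i).surjective v
    rw [hc, zero_mul, LinearMap.zero_apply]
  refine ⟨c⁻¹, ?_⟩
  apply LinearMap.ext
  intro v
  change φ ((a i).symm v) = c⁻¹ • φ v
  have h1 := hc ((a i).symm v)
  rw [LinearEquiv.apply_symm_apply] at h1
  rw [h1, smul_eq_mul, inv_mul_cancel_left₀ hc0]

end dual

end Cfsg.Agent.H202.RC
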